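import Mathlib
import Cfsg.Agent.Involution.Dihedral

/-!
# Isolated involutions
-/

namespace CfsgLib.Involution

open Subgroup

variable {G : Type*} [Group G] [Finite G]

/-- An isolated involution commutes with none of its other conjugates. -/
theorem isolated_eq_of_commute {P : Sylow 2 G} {u w : G} (hu : orderOf u = 2)
    (hiso : ∀ g : G, g * u * g⁻¹ ∈ P → g * u * g⁻¹ = u) (hc : IsConj u w) (hcomm : Commute u w) :
    w = u := by
  obtain ⟨c, rfl⟩ := isConj_iff.mp hc
  have hw : orderOf (c * u * c⁻¹) = 2 := by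
    simpa using (MulEquiv.orderOf_eq (MulAut.conj c) u).trans hu
  set w := c * u * c⁻¹ with hwdef
  have huw : (u * w) * (u * w) = 1 := by
    rw [mul_assoc, ← mul_assoc w u w, ← hcomm.eq, mul_assoc u w w, mul_self_of_orderOf_two hw, mul_one,
      mul_self_of_orderOf_two hu]
  have hp : IsPGroup 2 ↥(Subgroup.closure ({u, w} : Set G)) := by
    rw [isPGroup_iff_pow_pow_eq_one]
    rintro ⟨d, hd⟩
    refine ⟨1, Subtype.ext ?_⟩
    simp only [OneMemClass.coe_one, pow_one, pow_two, MulMemClass.coe_mul]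
    obtain ⟨i, rfl | rfl⟩ := mem_closure_pair hu hw hd
    · rw [← Commute.mul_zpow (Commute.refl _), huw, one_zpow]
    · rw [mul_assoc, ← mul_assoc ((u * w) ^ i), zpow_mul_comm hu hw, mul_assoc u, ← zpow_add,
        neg_add_cancel, zpow_zero, mul_one, mul_self_of_orderOf_two hu]
  obtain ⟨Q, hQ⟩ := hp.exists_le_sylow
  obtain ⟨h, rfl⟩ := MulAction.exists_smul_eq G P Q
  have hmem : ∀ a ∈ Subgroup.closure ({u, w} : Set G), h⁻¹ * a * h ∈ P := by
    intro a ha
    have := hQ ha
    rw [Sylow.coe_subgroup_smul, Subgroup.mem_pointwise_smul_iff_inv_smul_mem] at this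
    have h2 : h⁻¹ * a * h ∈ (P : Subgroup G) := by simpa using this
    exact h2
  have h1 : h⁻¹ * u * h = u := by
    simpa using hiso h⁻¹ (by simpa using hmem u (subset_closure (by simp)))
  have h2 : h⁻¹ * w * h = u := by
    have e : h⁻¹ * c * u * (h⁻¹ * c)⁻¹ = h⁻¹ * w * h := by rw [hwdef]; group
    rw [← e]
    exact hiso _ (e ▸ hmem w (subset_closure (by simp)))
  exact mul_left_cancel (mul_right_cancel (h2.trans h1.symm))

/-- For involutions with product of even order, `x` times the central involution of `⟨x,y⟩` is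
conjugate to `x` or to `y`. -/
theorem isConj_mul_central {x y : G} (hx : orderOf x = 2) (hy : orderOf y = 2)
    (heven : Even (orderOf (x * y))) :
    (4 ∣ orderOf (x * y) → IsConj x (x * (x * y) ^ (orderOf (x * y) / 2))) ∧
    (¬ 4 ∣ orderOf (x * y) → IsConj y (x * (x * y) ^ (orderOf (x * y) / 2))) := by
  refine ⟨fun h4 => ?_, fun h4 => ?_⟩
  · obtain ⟨d, -, hd⟩ := (conj_mul_central_iff hx hy heven).mpr h4
    exact isConj_iff.mpr ⟨d, hd⟩
  · obtain ⟨k, hk⟩ := heven
    obtain ⟨c, hc⟩ : ∃ c, k = 2 * c + 1 := ⟨k / 2, by omega⟩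
    obtain ⟨d, -, hd⟩ := exists_conj_eq_mul_zpow hy hx (-(c : ℤ))
    refine isConj_iff.mpr ⟨d, hd.trans ?_⟩
    have e : y * x = (x * y)⁻¹ := by
      rw [mul_inv_rev, inv_eq_self_of_orderOf_two hx, inv_eq_self_of_orderOf_two hy]
    rw [e, inv_zpow', show orderOf (x * y) / 2 = 1 + 2 * c by omega, pow_add, pow_one,
      ← mul_assoc x (x * y), left_mul_mul_self hx, ← zpow_natCast]
    congr 2
    push_cast
    ring

theorem isolated_iff_commutators_odd (P : Sylow 2 G) {u : G} (hu : orderOf u = 2) (huP : u ∈ P) :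
    (∀ g : G, g * u * g⁻¹ ∈ P → g * u * g⁻¹ = u) ↔
      ∀ g : G, Odd (orderOf (u * g * u⁻¹ * g⁻¹)) := by
  have hui := inv_eq_self_of_orderOf_two hu
  constructor
  · intro hiso g
    set v := g * u * g⁻¹ with hvdef
    have hv : orderOf v = 2 := by
      simpa using (MulEquiv.orderOf_eq (MulAut.conj g) u).trans hu
    rw [hui, show u * g * u * g⁻¹ = u * v by rw [hvdef]; group]
    by_contra hodd
    rw [Nat.not_odd_iff_even] at hodd
    obtain ⟨hz, hzu, -⟩ := central_involution hu hv hodd
    set z := (u * v) ^ (orderOf (u * v) / 2) with hzdef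
    have hconj : IsConj u (u * z) := by
      by_cases h4 : 4 ∣ orderOf (u * v)
      · exact (isConj_mul_central hu hv hodd).1 h4
      · exact (isConj_iff.mpr ⟨g, hvdef.symm⟩).trans ((isConj_mul_central hu hv hodd).2 h4)
    have := isolated_eq_of_commute hu hiso hconj ((Commute.refl u).mul_right hzu.symm)
    exact ne_one_of_orderOf_two hz (mul_left_cancel (this.trans (mul_one u).symm))
  · intro hodd g hg
    have hmem : u * g * u⁻¹ * g⁻¹ ∈ P := by
      rw [hui, show u * g * u * g⁻¹ = u * (g * u * g⁻¹) by group]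
      exact mul_mem huP hg
    obtain ⟨k, hk⟩ := IsPGroup.iff_orderOf.mp P.isPGroup' ⟨_, hmem⟩
    rw [Subgroup.orderOf_mk] at hk
    have hone : u * g * u⁻¹ * g⁻¹ = 1 := by
      rw [← orderOf_eq_one_iff, hk]
      rcases k with _ | k
      · simp
      · exact absurd (hk ▸ hodd g : Odd (2 ^ (k + 1))) (by simp [Nat.odd_pow_iff])
    rw [hui, show u * g * u * g⁻¹ = u * (g * u * g⁻¹) by group] at hone
    have := eq_inv_of_mul_eq_one_right hone
    rwa [hui] at this

theorem isolated_product_mod_four (S : Sylow 2 G) {t s : G} (ht : orderOf t = 2)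
    (hiso : ∀ g : G, g * t * g⁻¹ ∈ S → g * t * g⁻¹ = t) (hs : orderOf s = 2)
    (hns : ¬ IsConj s t) : orderOf (s * t) % 4 = 2 := by
  have hord : orderOf (s * t) = orderOf (t * s) := by
    rw [← orderOf_inv (t * s), mul_inv_rev, inv_eq_self_of_orderOf_two hs,
      inv_eq_self_of_orderOf_two ht]
  rw [hord]
  have heven : Even (orderOf (t * s)) := Nat.not_odd_iff_even.mp fun hodd =>
    hns (isConj_of_odd ht hs hodd).symm
  obtain ⟨k, hk⟩ := heven
  by_contra h4
  obtain ⟨hz, hzt, -⟩ := central_involution ht hs ⟨k, hk⟩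
  have hconj := (isConj_mul_central ht hs ⟨k, hk⟩).1 (by omega)
  have := isolated_eq_of_commute ht hiso hconj ((Commute.refl t).mul_right hzt.symm)
  exact ne_one_of_orderOf_two hz (mul_left_cancel (this.trans (mul_one t).symm))

end CfsgLib.Involution
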