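import Mathlib
import Cfsg.Agent.Involution.Dihedral
import Cfsg.Agent.BaerSuzuki.Classes

/-!
# Groups of order twelve without a central involution
-/

namespace CfsgLib.Involution

open Subgroup

variable {G : Type*} [Group G] [Finite G]

/-- A group of order `12` with no central involution is the alternating group of degree four. -/
theorem order_twelve_alternating (hG : Nat.card G = 12)
    (hz : ∀ z : G, orderOf z = 2 → z ∉ Subgroup.center G) :
    Nonempty (G ≃* alternatingGroup (Fin 4)) := by
  classical
  cases nonempty_fintype G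
  have h3 : Fact (Nat.Prime 3) := ⟨Nat.prime_three⟩
  obtain ⟨P, hP⟩ := Sylow.exists_subgroup_card_pow_prime (G := G) (n := 1) 3 (by rw [hG]; norm_num)
  rw [pow_one] at hP
  have hidx : P.index = 4 := by
    have := P.index_mul_card
    rw [hP, hG] at this
    omega
  by_cases hPn : P.Normal
  · exfalso
    have hPcyc : IsCyclic P := isCyclic_of_prime_card hP
    let φ : G →* MulAut P := MulAut.conjNormal
    have hAut : Nat.card (MulAut P) = 2 := by rw [hPcyc.card_mulAut, hP]; rfl
    have hker : φ.ker.index ∣ 2 := by
      rw [Subgroup.index_ker, ← hAut]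
      exact Subgroup.card_subgroup_dvd_card _
    have hmul := φ.ker.index_mul_card
    have hcomm : ∀ a ∈ φ.ker, ∀ p ∈ P, a * p = p * a := by
      intro a ha p hp
      have := congrArg (fun e : MulAut P => ((e ⟨p, hp⟩ : P) : G)) (MonoidHom.mem_ker.mp ha)
      simp only [φ, MulAut.conjNormal_apply, MulAut.one_apply] at this
      exact mul_inv_eq_iff_eq_mul.mp this
    have hPker : P ≤ φ.ker := by
      intro p hp
      rw [MonoidHom.mem_ker]
      ext ⟨q, hq⟩
      simp only [φ, MulAut.conjNormal_apply, MulAut.one_apply]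
      have hm : (⟨p, hp⟩ : P) * ⟨q, hq⟩ = ⟨q, hq⟩ * ⟨p, hp⟩ := mul_comm' _ _
      exact mul_inv_eq_iff_eq_mul.mpr (congrArg Subtype.val hm)
    have heven : 2 ∣ Nat.card φ.ker := by
      rw [hG] at hmul
      rcases (Nat.dvd_prime Nat.prime_two).mp hker with h | h <;> rw [h] at hmul <;> omega
    obtain ⟨⟨z, hzk⟩, hz2⟩ := exists_prime_orderOf_dvd_card' (G := φ.ker) 2 heven
    rw [Subgroup.orderOf_mk] at hz2
    obtain ⟨p, hp⟩ : ∃ p : P, p ≠ 1 := by
      have : Nontrivial P := Finite.one_lt_card_iff_nontrivial.mp (by rw [hP]; norm_num)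
      exact exists_ne 1
    have hp3 : orderOf (p : G) = 3 := by
      rw [Subgroup.orderOf_coe]
      exact orderOf_eq_prime (by rw [← hP]; exact pow_card_eq_one') hp
    rcases (Nat.dvd_prime Nat.prime_two).mp hker with h | h
    · -- `P` is central
      have hPc : P ≤ Subgroup.center G := fun a ha => Subgroup.mem_center_iff.mpr fun g =>
        hcomm g ((Subgroup.index_eq_one.mp h) ▸ Subgroup.mem_top g) a ha
      obtain ⟨T⟩ : Nonempty (Sylow 2 G) := inferInstance
      have hT : Nat.card (T : Subgroup G) = 4 := by
        obtain ⟨k, hk⟩ := IsPGroup.iff_card.mp T.isPGroup'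
        have h1 : Nat.card (T : Subgroup G) ∣ 12 := hG ▸ Subgroup.card_subgroup_dvd_card _
        have h2 : 2 ^ 2 ∣ Nat.card (T : Subgroup G) :=
          T.pow_dvd_card_of_pow_dvd_card (by rw [hG]; norm_num)
        rw [hk] at h1 h2 ⊢
        rw [Nat.pow_dvd_pow_iff_le_right (by norm_num)] at h2
        by_contra hne
        have : 3 ≤ k := by
          by_contra hk3
          interval_cases k
          exact hne rfl
        have := (pow_dvd_pow 2 this).trans h1
        omega
      obtain ⟨⟨w, hwT⟩, hw2⟩ :=
        exists_prime_orderOf_dvd_card' (G := (T : Subgroup G)) 2 (by rw [hT]; norm_num)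
      rw [Subgroup.orderOf_mk] at hw2
      refine hz w hw2 ?_
      have : IsMulCommutative (T : Subgroup G) :=
        IsPGroup.isMulCommutative_of_card_eq_prime_sq (p := 2) hT
      have htop : P ⊔ (T : Subgroup G) = ⊤ := by
        refine Subgroup.eq_top_of_card_eq _ (Nat.dvd_antisymm (Subgroup.card_subgroup_dvd_card _) ?_)
        rw [hG, show 12 = 3 * 4 by norm_num]
        exact Nat.Coprime.mul_dvd_of_dvd_of_dvd (by norm_num)
          (hP ▸ Subgroup.card_dvd_of_le le_sup_left) (hT ▸ Subgroup.card_dvd_of_le le_sup_right)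
      have hle : P ⊔ (T : Subgroup G) ≤ centralizer ({w} : Set G) := by
        refine sup_le (fun a ha => ?_) (fun a ha => ?_)
        · exact mem_centralizer_singleton_iff.mpr ((Subgroup.mem_center_iff.mp (hPc ha) w)).symm
        · exact mem_centralizer_singleton_iff.mpr
            (congrArg Subtype.val (mul_comm' (⟨a, ha⟩ : (T : Subgroup G)) ⟨w, hwT⟩))
      rw [htop] at hle
      exact Subgroup.mem_center_iff.mpr fun g =>
        mem_centralizer_singleton_iff.mp (hle (Subgroup.mem_top g))
    · -- the kernel is cyclic of order six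
      have hK : Nat.card φ.ker = 6 := by rw [h, hG] at hmul; omega
      have hord : orderOf (z * (p : G)) = 6 := by
        have hcop : (orderOf z).Coprime (orderOf (p : G)) := by rw [hz2, hp3]; norm_num
        rw [Commute.orderOf_mul_eq_mul_orderOf_of_coprime (hcomm z hzk p p.2) hcop, hz2, hp3]
      have hgen : Subgroup.zpowers (z * (p : G)) = φ.ker := by
        refine Subgroup.eq_of_le_of_card_ge ?_ (by rw [Nat.card_zpowers, hord, hK])
        rw [Subgroup.zpowers_le]
        exact mul_mem hzk (hPker p.2)
      refine hz z hz2 (Subgroup.mem_center_iff.mpr fun g => ?_)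
      have hconj : g * z * g⁻¹ = z := BaerSuzuki.involution_unique_in_zpowers
        (by simpa using (MulEquiv.orderOf_eq (MulAut.conj g) z).trans hz2) hz2
        (hgen ▸ (inferInstance : φ.ker.Normal).conj_mem z hzk g) (hgen ▸ hzk)
      exact mul_inv_eq_iff_eq_mul.mp hconj
  · let f : G →* Equiv.Perm (G ⧸ P) := MulAction.toPermHom G (G ⧸ P)
    have hinj : Function.Injective f := by
      rw [← MonoidHom.ker_eq_bot_iff, ← Subgroup.normalCore_eq_ker]
      have hd : Nat.card P.normalCore ∣ 3 := hP ▸ Subgroup.card_dvd_of_le P.normalCore_le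
      rcases (Nat.dvd_prime Nat.prime_three).mp hd with h | h
      · exact Subgroup.card_eq_one.mp h
      · exfalso
        have := Subgroup.eq_of_le_of_card_ge P.normalCore_le (by rw [h, hP])
        exact hPn (this ▸ inferInstance)
    let e : G ⧸ P ≃ Fin 4 := Finite.equivFinOfCardEq hidx
    let ψ : G →* Equiv.Perm (Fin 4) := (e.permCongrHom : _ ≃* _).toMonoidHom.comp f
    have hψ : Function.Injective ψ := e.permCongrHom.injective.comp hinj
    have hrange : ψ.range = alternatingGroup (Fin 4) := by
      refine Equiv.Perm.eq_alternatingGroup_of_index_eq_two ?_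
      have h1 := ψ.range.index_mul_card
      rw [← Nat.card_congr (MonoidHom.ofInjective hψ).toEquiv, hG, Nat.card_perm, Nat.card_fin] at h1
      simp only [Nat.factorial] at h1
      omega
    exact ⟨(MonoidHom.ofInjective hψ).trans (MulEquiv.subgroupCongr hrange)⟩

end CfsgLib.Involution
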